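import Cfsg.Agent.Lib.GLn.ClassInvariant
import Cfsg.Agent.Lib.Classical.UnitarySemisimpleClasses

/-!
# Conjugacy in unitary groups: similarity invariants and centralizer determinants

Similar unitary matrices are conjugate in `GU`, their similarity invariants are fixed by the
conjugate reciprocal map, and centralizer determinants in `GU` contain the `(1 - q)`-th powers of
those in `GL`.
-/

set_option autoImplicit false

namespace Cfsg.Agent.Lib.SUClassCount

open Polynomial Matrix Cfsg.Agent.Lib.UnitaryConj Cfsg.Agent.Lib.GLn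
open Cfsg.Agent.Lib.Classical.UnitarySemisimpleClasses
open Cfsg.Agent.Lib.GLn.ClassInvariant

universe u

variable {K : Type u} [Field K] [Fintype K] {q n : ℕ} (hK : Fintype.card K = q ^ 2)

include hK in
/-- Similar unitary matrices are unitarily similar. -/
theorem isConj_GU_of_isConj (g h : ↥(Cfsg.GU n K q)) (hgh : IsConj (g : GL (Fin n) K) (h : GL (Fin n) K)) :
    IsConj g h := by
  obtain ⟨x, hx⟩ := isConj_iff.1 hgh
  set X : Matrix (Fin n) (Fin n) K := (x : Matrix (Fin n) (Fin n) K) with hX
  set G : Matrix (Fin n) (Fin n) K := ((g : GL (Fin n) K) : Matrix (Fin n) (Fin n) K) with hG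
  set H : Matrix (Fin n) (Fin n) K := ((h : GL (Fin n) K) : Matrix (Fin n) (Fin n) K) with hH
  have hxg : X * G = H * X := congrArg Units.val (mul_inv_eq_iff_eq_mul.1 hx)
  have hGs := (mem_GU_iff hK _).1 g.2
  have hHs := (mem_GU_iff hK _).1 h.2
  set y : GL (Fin n) K := ⟨tstar hK X * X,
    ((x⁻¹ : GL (Fin n) K) : Matrix (Fin n) (Fin n) K) * tstar hK ((x⁻¹ : GL (Fin n) K) : Matrix (Fin n) (Fin n) K),
    by rw [← mul_assoc, mul_assoc (tstar hK X) X, hX, Units.mul_inv, mul_one, ← tstar_mul, Units.inv_mul, tstar_one],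
    by rw [mul_assoc, ← mul_assoc (tstar hK ((x⁻¹ : GL (Fin n) K) : Matrix (Fin n) (Fin n) K)), ← tstar_mul, hX,
      Units.mul_inv, tstar_one, one_mul, Units.inv_mul]⟩ with hy
  obtain ⟨c, hc1, hc2⟩ := exists_sqrt hK y (by
    show tstar hK (tstar hK X * X) = _
    rw [tstar_mul, tstar_tstar])
  have hyG : Commute G (y : Matrix (Fin n) (Fin n) K) := by
    have h1 : tstar hK G * (tstar hK X * X) * G = tstar hK X * X := by
      calc tstar hK G * (tstar hK X * X) * G = tstar hK (X * G) * (X * G) := by rw [tstar_mul]; simp only [mul_assoc]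
        _ = tstar hK X * (tstar hK H * H) * X := by rw [hxg, tstar_mul]; simp only [mul_assoc]
        _ = _ := by rw [hHs, mul_one]
    show G * (tstar hK X * X) = (tstar hK X * X) * G
    conv_lhs => rw [← h1]
    rw [← mul_assoc, ← mul_assoc, mul_eq_one_comm.1 hGs, one_mul]
  have hcg : Commute c (g : GL (Fin n) K) := Units.ext (hc2 G hyG).eq.symm
  have huU : x * c⁻¹ ∈ Cfsg.GU n K q := by
    rw [mem_GU_iff hK, Units.val_mul, tstar_mul]
    calc tstar hK ((c⁻¹ : GL (Fin n) K) : Matrix (Fin n) (Fin n) K) * tstar hK X * (X * _)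
        = tstar hK ((c⁻¹ : GL (Fin n) K) : Matrix (Fin n) (Fin n) K) * (tstar hK (c : Matrix (Fin n) (Fin n) K) * c) *
          ((c⁻¹ : GL (Fin n) K) : Matrix (Fin n) (Fin n) K) := by rw [hc1]; simp only [hy, mul_assoc]
      _ = 1 := by
        rw [← mul_assoc, ← tstar_mul, Units.mul_inv, tstar_one, one_mul, Units.mul_inv]
  refine isConj_iff.2 ⟨⟨_, huU⟩, Subtype.ext ?_⟩
  show x * c⁻¹ * (g : GL (Fin n) K) * (x * c⁻¹)⁻¹ = (h : GL (Fin n) K)
  rw [← hx, _root_.mul_inv_rev, inv_inv, mul_assoc x c⁻¹, (hcg.inv_left).eq]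
  group

include hK in
theorem det_tstar (A : Matrix (Fin n) (Fin n) K) : (tstar hK A).det = qHom hK A.det := by
  rw [tstar, Matrix.det_transpose, RingHom.map_det]; rfl

include hK in
/-- A centralizing element of determinant `d` gives a unitary one of determinant `d / σ d`. -/
theorem exists_unitary_det (g : GL (Fin n) K) (hg : g ∈ Cfsg.GU n K q) (z : GL (Fin n) K) (hz : Commute z g) :
    ∃ u : GL (Fin n) K, u ∈ Cfsg.GU n K q ∧ Commute u g ∧
      (u : Matrix (Fin n) (Fin n) K).det = (z : Matrix (Fin n) (Fin n) K).det * (qHom hK (z : Matrix (Fin n) (Fin n) K).det)⁻¹ := by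
  set G : Matrix (Fin n) (Fin n) K := (g : Matrix (Fin n) (Fin n) K) with hG
  set Z : Matrix (Fin n) (Fin n) K := (z : Matrix (Fin n) (Fin n) K) with hZ
  have hGs : tstar hK G * G = 1 := (mem_GU_iff hK g).1 hg
  have hGs' : G * tstar hK G = 1 := mul_eq_one_comm.1 hGs
  have hZG : Z * G = G * Z := congrArg Units.val hz.eq
  let star' : GL (Fin n) K → GL (Fin n) K := fun a => ⟨tstar hK a, tstar hK (a⁻¹ : GL (Fin n) K),
    by rw [← tstar_mul, Units.inv_mul, tstar_one], by rw [← tstar_mul, Units.mul_inv, tstar_one]⟩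
  have hZsG : Commute G (tstar hK Z) := by
    have h1 : tstar hK G * tstar hK Z = tstar hK Z * tstar hK G := by rw [← tstar_mul, ← tstar_mul, hZG]
    calc G * tstar hK Z = G * (tstar hK Z * (tstar hK G * G)) := by rw [hGs, mul_one]
      _ = (G * tstar hK G) * (tstar hK Z * G) := by rw [← mul_assoc (tstar hK Z), ← h1]; simp only [mul_assoc]
      _ = tstar hK Z * G := by rw [hGs', one_mul]
  set y : GL (Fin n) K := star' z * z with hy
  have hyv : (y : Matrix (Fin n) (Fin n) K) = tstar hK Z * Z := rfl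
  obtain ⟨c, hc1, hc2⟩ := exists_sqrt hK y (by rw [hyv, tstar_mul, tstar_tstar])
  set C : Matrix (Fin n) (Fin n) K := (c : Matrix (Fin n) (Fin n) K) with hC
  have hyG : Commute G (y : Matrix (Fin n) (Fin n) K) := by
    rw [hyv]; exact hZsG.mul_right hZG.symm
  have hcy : Commute C (y : Matrix (Fin n) (Fin n) K) := (hc2 _ (Commute.refl _)).symm
  have hnormal : Commute (tstar hK C) C := by
    refine hc2 _ ?_
    have h1 := congrArg (tstar hK) hcy.eq
    have hyh : tstar hK (y : Matrix (Fin n) (Fin n) K) = y := by rw [hyv, tstar_mul, tstar_tstar]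
    rw [tstar_mul, tstar_mul, hyh] at h1
    exact h1.symm
  have hsU : ∀ a : GL (Fin n) K, a ∈ Cfsg.GU n K q ↔ star' a * a = 1 := fun a => by
    rw [mem_GU_iff hK, Units.ext_iff]; rfl
  have hstar_mul : ∀ a b : GL (Fin n) K, star' (a * b) = star' b * star' a := fun a b =>
    Units.ext (tstar_mul hK _ _)
  have hss : ∀ a, star' (star' a) = a := fun a => Units.ext (tstar_tstar hK _)
  have hstar_inv : ∀ a, star' a⁻¹ = (star' a)⁻¹ := fun a => eq_inv_of_mul_eq_one_left (by
    rw [← hstar_mul, _root_.mul_inv_cancel]; exact Units.ext (tstar_one hK))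
  have hC1 : star' c * c = y := Units.ext hc1
  have hcc : Commute (star' c) c := Units.ext hnormal.eq
  have hcG : Commute c g := Units.ext (hc2 G hyG).symm.eq
  have hcsG : Commute (star' c) g := by
    refine Units.ext (show tstar hK C * G = G * tstar hK C from ?_)
    have h0 : C * G = G * C := congrArg Units.val hcG.eq
    have h1 : tstar hK G * tstar hK C = tstar hK C * tstar hK G := by rw [← tstar_mul, ← tstar_mul, h0]
    symm
    calc G * tstar hK C = G * (tstar hK C * (tstar hK G * G)) := by rw [hGs, mul_one]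
      _ = (G * tstar hK G) * (tstar hK C * G) := by rw [← mul_assoc (tstar hK C), ← h1]; simp only [mul_assoc]
      _ = tstar hK C * G := by rw [hGs', one_mul]
  set u := z * c⁻¹ with hu
  set v := c * (star' c)⁻¹ with hv
  have huU : u ∈ Cfsg.GU n K q := by
    rw [hsU, hu, hstar_mul, hstar_inv, mul_assoc, ← mul_assoc (star' z), ← hy, ← hC1]
    group
  have hvU : v ∈ Cfsg.GU n K q := by
    rw [hsU, hv, hstar_mul, hstar_inv, hss]
    rw [mul_assoc, ← mul_assoc (star' c), hcc.eq]
    group
  refine ⟨u * u * v, mul_mem (mul_mem huU huU) hvU,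
    ((hz.mul_left hcG.inv_left).mul_left (hz.mul_left hcG.inv_left)).mul_left (hcG.mul_left hcsG.inv_left), ?_⟩
  have hdc : qHom hK C.det * C.det = qHom hK Z.det * Z.det := by
    rw [← det_tstar hK, ← det_tstar hK, ← Matrix.det_mul, ← Matrix.det_mul, hc1, hyv]
  have hC0 : C.det ≠ 0 := ((Matrix.isUnit_iff_isUnit_det _).1 c.isUnit).ne_zero
  have hZ0 : Z.det ≠ 0 := ((Matrix.isUnit_iff_isUnit_det _).1 z.isUnit).ne_zero
  have hu' : (u : Matrix (Fin n) (Fin n) K).det = Z.det * C.det⁻¹ := by
    rw [hu, Units.val_mul, Matrix.det_mul, Matrix.coe_units_inv, Matrix.det_nonsing_inv, Ring.inverse_eq_inv]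
  have hv' : (v : Matrix (Fin n) (Fin n) K).det = C.det * (qHom hK C.det)⁻¹ := by
    rw [hv, Units.val_mul, Matrix.det_mul, Matrix.coe_units_inv, Matrix.det_nonsing_inv, Ring.inverse_eq_inv]
    exact congrArg (fun t => C.det * t⁻¹) (det_tstar hK C)
  rw [Units.val_mul, Units.val_mul, Matrix.det_mul, Matrix.det_mul, hu', hv']
  have hsC : qHom hK C.det ≠ 0 := (map_ne_zero (qHom hK)).2 hC0
  have hsZ : qHom hK Z.det ≠ 0 := (map_ne_zero (qHom hK)).2 hZ0
  field_simp
  linear_combination -hdc

/-- Kernels of square matrices are governed by the rank. -/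
theorem card_ker_eq (A : Matrix (Fin n) (Fin n) K) :
    Nat.card {v : Fin n → K // A *ᵥ v = 0} = Fintype.card K ^ (n - A.rank) := by
  have h := LinearMap.finrank_range_add_finrank_ker A.mulVecLin
  rw [Module.finrank_fin_fun] at h
  rw [show n - A.rank = Module.finrank K (LinearMap.ker A.mulVecLin) by rw [Matrix.rank]; omega,
    ← Nat.card_eq_fintype_card (α := K), ← Module.natCard_eq_pow_finrank]
  exact Nat.card_congr (Equiv.subtypeEquivRight fun v => by rw [LinearMap.mem_ker, Matrix.mulVecLin_apply])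

theorem rank_map_hom (A : Matrix (Fin n) (Fin n) K) (f : K →+* K) : (A.map f).rank = A.rank := by
  have hb : Function.Bijective f := Finite.injective_iff_bijective.1 f.injective
  let e : (Fin n → K) ≃ (Fin n → K) := Equiv.piCongrRight fun _ => Equiv.ofBijective f hb
  have h : Nat.card {v : Fin n → K // A *ᵥ v = 0} = Nat.card {v : Fin n → K // A.map f *ᵥ v = 0} := by
    refine Nat.card_congr (e.subtypeEquiv fun v => ?_)
    have h1 : A.map f *ᵥ e v = fun i => f ((A *ᵥ v) i) := funext fun i => (RingHom.map_mulVec f A v i).symm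
    rw [h1, funext_iff, funext_iff]
    exact forall_congr' fun i => (map_eq_zero f).symm
  rw [card_ker_eq, card_ker_eq] at h
  have h2 := Nat.pow_right_injective (Fintype.one_lt_card (α := K)) h
  have h3 := A.rank_le_width
  have h4 := (A.map f).rank_le_width
  omega

theorem kerCard_rank (g : GL (Fin n) K) (P : K[X]) (k : ℕ) :
    kerCard g P k = Fintype.card K ^ (n - (aeval (g : Matrix (Fin n) (Fin n) K) (P ^ k)).rank) := by
  rw [kerCard, ← card_ker_eq]
  refine Nat.card_congr (Equiv.subtypeEquivRight fun v => ?_)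
  have h := aeval_algHom_apply (Matrix.toLinAlgEquiv' : Matrix (Fin n) (Fin n) K ≃ₐ[K] _) (g : Matrix (Fin n) (Fin n) K) (P ^ k)
  rw [show Matrix.toLin' (g : Matrix (Fin n) (Fin n) K) = Matrix.toLinAlgEquiv' (g : Matrix (Fin n) (Fin n) K) from rfl, h]
  rfl

include hK in
theorem tstar_aeval (M : Matrix (Fin n) (Fin n) K) (P : K[X]) :
    tstar hK (aeval M P) = aeval (tstar hK M) (P.map (qHom hK)) := by
  induction P using Polynomial.induction_on' with
  | add s t hs ht => rw [map_add, tstar_add, hs, ht, Polynomial.map_add, map_add]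
  | monomial k c =>
    rw [Polynomial.map_monomial, aeval_monomial, aeval_monomial, ← Algebra.smul_def, ← Algebra.smul_def, tstar_smul]
    congr 1
    induction k with
    | zero => rw [pow_zero, pow_zero, tstar_one]
    | succ k ih => rw [pow_succ, tstar_mul, ih, ← pow_succ']

/-- Evaluating the reverse polynomial. -/
theorem aeval_reverse (M N : Matrix (Fin n) (Fin n) K) (hMN : M * N = 1) (R : K[X]) :
    aeval M R.reverse * N ^ R.natDegree = aeval N R := by
  have hNM : N * M = 1 := mul_eq_one_comm.1 hMN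
  have hc : Commute M N := hMN.trans hNM.symm
  set d := R.natDegree
  rw [aeval_eq_sum_range' (show R.reverse.natDegree < d + 1 by have := reverse_natDegree_le R; omega) M,
    aeval_eq_sum_range' (show R.natDegree < d + 1 by omega) N, Finset.sum_mul,
    ← Finset.sum_range_reflect _ (d + 1)]
  refine Finset.sum_congr rfl fun i hi => ?_
  rw [Finset.mem_range] at hi
  rw [show d + 1 - 1 - i = d - i by omega, coeff_reverse, revAt_le (Nat.sub_le _ _), show d - (d - i) = i by omega,
    smul_mul_assoc]
  congr 1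
  rw [show N ^ d = N ^ (d - i) * N ^ i by rw [← pow_add]; congr 1; omega, ← mul_assoc, ← hc.mul_pow, hMN, one_pow, one_mul]

include hK in
/-- For unitary elements, a polynomial and its dual have kernels of the same size. -/
theorem kerCard_dual (g : GL (Fin n) K) (hg : g ∈ Cfsg.GU n K q) (P : K[X]) (h0 : P.coeff 0 ≠ 0) (k : ℕ) :
    kerCard g (dual hK P) k = kerCard g P k := by
  set M : Matrix (Fin n) (Fin n) K := (g : Matrix (Fin n) (Fin n) K) with hM
  have hMM : M * tstar hK M = 1 := mul_eq_one_comm.1 ((mem_GU_iff hK g).1 hg)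
  have hpow : dual hK P ^ k = dual hK (P ^ k) := by
    induction k with
    | zero => rw [pow_zero, pow_zero, dual, coeff_one_zero, map_one, inv_one, C_1, one_mul, Polynomial.map_one, ← C_1, reverse_C]
    | succ k ih => rw [pow_succ, pow_succ, dual_mul, ih]
  rw [kerCard_rank, kerCard_rank, hpow]
  have hQ0 : (P ^ k).coeff 0 ≠ 0 := by rw [← constantCoeff_apply, map_pow]; exact pow_ne_zero _ h0
  generalize P ^ k = Q at hQ0 ⊢
  congr 2
  set R := Q.map (qHom hK) with hR
  have e := aeval_reverse M (tstar hK M) hMM R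
  rw [← tstar_aeval hK] at e
  have hdetN : IsUnit ((tstar hK M) ^ R.natDegree).det := by
    rw [Matrix.det_pow]
    exact ((Matrix.isUnit_iff_isUnit_det _).1 (IsUnit.of_mul_eq_one_right _ hMM)).pow _
  have hrev : (aeval M R.reverse).rank = (aeval M Q).rank := by
    rw [← Matrix.rank_mul_eq_left_of_isUnit_det _ _ hdetN, e, tstar, Matrix.rank_transpose]
    exact rank_map_hom _ (qHom hK)
  rw [dual, map_mul, aeval_C, ← hR]
  rw [Matrix.rank_mul_eq_right_of_isUnit_det _ _ ?_, hrev]
  rw [← Matrix.isUnit_iff_isUnit_det]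
  exact (IsUnit.mk0 _ (inv_ne_zero ((map_ne_zero (qHom hK)).2 hQ0))).map _

include hK in
/-- The invariants of a unitary element are self-dual. -/
theorem tup_dual (hn : 1 ≤ n) (g : GL (Fin n) K) (hg : g ∈ Cfsg.GU n K q) (i : Fin n) :
    dual hK ((tup hn g).1 i) = (tup hn g).1 i := by
  classical
  set D := (exists_decomp g hn).some
  show dual hK (D.parts i).prod = (D.parts i).prod
  have hone : dual hK (1 : K[X]) = 1 := by
    rw [dual, coeff_one_zero, map_one, inv_one, C_1, one_mul, Polynomial.map_one, ← C_1, reverse_C]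
  have hprod : ∀ s : Multiset K[X], dual hK s.prod = (s.map (dual hK)).prod := fun s => by
    induction s using Multiset.induction_on with
    | empty => rw [Multiset.prod_zero, Multiset.map_zero, Multiset.prod_zero, hone]
    | cons a s ih => rw [Multiset.prod_cons, dual_mul, Multiset.map_cons, Multiset.prod_cons, ih]
  rw [hprod]
  congr 1
  have hcount : ∀ x : K[X], x.Monic → Irreducible x → x.coeff 0 ≠ 0 →
      (D.parts i).count (dual hK x) = (D.parts i).count x := fun x hx hxi hx0 => by
    rw [D.count_parts, D.count_parts]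
    exact Decomp.minSum_eq_of_kerCard D D (monic_dual hK hx0) (irreducible_dual hK hx hxi hx0) hx hxi
      (natDegree_dual hK hx0) (fun k => kerCard_dual hK g hg x hx0 k) i
  have hinj : Set.InjOn (dual hK) {x | x ∈ D.parts i} := fun x hx y hy e => by
    have := congrArg (dual hK) e
    rwa [dual_dual hK (D.mem_parts hx).1 (D.mem_parts hx).2.2, dual_dual hK (D.mem_parts hy).1 (D.mem_parts hy).2.2] at this
  refine Multiset.ext.2 fun y => ?_
  by_cases hy : y ∈ (D.parts i).map (dual hK)
  · obtain ⟨x, hx, rfl⟩ := Multiset.mem_map.1 hy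
    rw [Multiset.count_map_eq_count _ _ hinj _ hx, hcount x (D.mem_parts hx).1 (D.mem_parts hx).2.1 (D.mem_parts hx).2.2]
  · rw [Multiset.count_eq_zero_of_notMem hy, eq_comm]
    by_contra hne
    have hym := Multiset.count_ne_zero.1 hne
    obtain ⟨h1, h2, h3⟩ := D.mem_parts hym
    rw [← hcount y h1 h2 h3] at hne
    exact hy (Multiset.mem_map.2 ⟨dual hK y, Multiset.count_ne_zero.1 hne, dual_dual hK h1 h3⟩)

end Cfsg.Agent.Lib.SUClassCount
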