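import Mathlib

/-!
# Numerical bounds for weighted products of geometric series
-/

set_option autoImplicit false

namespace Cfsg.Agent.Lib.SUClassCount.Numeric

open Finset

/-- Number of conjugate reciprocal monic polynomials of degree `d`. -/
def a (q d : ℕ) : ℕ := if d = 0 then 1 else (q + 1) * q ^ (d - 1)

/-- The coefficient of `t ^ m` in the product over the `N` weights starting at `s`. -/
def cnt (q s : ℕ) : ℕ → ℕ → ℕ
  | 0, m => if m = 0 then 1 else 0
  | N + 1, m => ∑ d ∈ range (m / s + 1), a q d * cnt q (s + 1) N (m - s * d)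

theorem cnt_zero (q s N : ℕ) : cnt q s N 0 = 1 := by
  induction N generalizing s with
  | zero => simp [cnt]
  | succ N ih => simp [cnt, a, ih]

theorem cnt_lt (q : ℕ) {s N m : ℕ} (h1 : 1 ≤ m) (h2 : m < s) : cnt q s N m = 0 := by
  induction N generalizing s with
  | zero => simp [cnt]; omega
  | succ N ih => simp [cnt, Nat.div_eq_of_lt h2, a, ih (show m < s + 1 by omega)]

theorem cnt_single (q : ℕ) {N : ℕ} : ∀ {s m : ℕ}, s ≤ m → m < 2 * s → m < s + N → cnt q s N m = q + 1 := by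
  induction N with
  | zero => intro s m h1 _ h3; omega
  | succ N ih =>
    intro s m h1 h2 h3
    have hd : m / s = 1 := Nat.div_eq_of_lt_le (by omega) (by omega)
    rcases eq_or_lt_of_le h1 with rfl | h
    · simp [cnt, hd, Finset.sum_range_succ, a, cnt_zero, cnt_lt q (show 1 ≤ s by omega) (show s < s + 1 by omega)]
    · simp [cnt, hd, Finset.sum_range_succ, a, ih (show s + 1 ≤ m by omega) (show m < 2 * (s + 1) by omega) (by omega),
        cnt_lt q (show 1 ≤ m - s by omega) (show m - s < s + 1 by omega)]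

/-- `q ^ (1 - i)`. -/
def xx (q i : ℕ) : ℚ := (q : ℚ) * (1 / (q : ℚ)) ^ i

/-- The sum of one geometric series. -/
def phi (q i : ℕ) : ℚ := 1 + ((q : ℚ) + 1) / q * (xx q i / (1 - xx q i))

/-- The partial product. -/
def prodPhi (q : ℕ) : ℕ → ℕ → ℚ
  | _, 0 => 1
  | s, N + 1 => phi q s * prodPhi q (s + 1) N

/-- The tail. -/
def Y (q s : ℕ) : ℚ := ((q : ℚ) + 1) / ((q : ℚ) - 1) * xx q s

variable {q : ℕ}

theorem xx_pos (hq : 2 ≤ q) (i : ℕ) : 0 < xx q i := by
  have : (0 : ℚ) < q := by exact_mod_cast (show 0 < q by omega)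
  unfold xx; positivity

theorem xx_succ (hq : 2 ≤ q) (i : ℕ) : xx q (i + 1) = xx q i / q := by
  have : (q : ℚ) ≠ 0 := by exact_mod_cast (show q ≠ 0 by omega)
  unfold xx; rw [pow_succ]; field_simp

theorem xx_lt_one (hq : 2 ≤ q) {i : ℕ} (hi : 2 ≤ i) : xx q i < 1 := by
  induction i, hi using Nat.le_induction with
  | base =>
    have h0 : (1 : ℚ) < q := by exact_mod_cast (show 1 < q by omega)
    unfold xx
    field_simp
    nlinarith
  | succ i _ ih =>
    rw [xx_succ hq]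
    have h0 : (1 : ℚ) ≤ q := by exact_mod_cast (show 1 ≤ q by omega)
    exact lt_of_le_of_lt (div_le_self (xx_pos hq i).le h0) ih

theorem one_le_phi (hq : 2 ≤ q) {i : ℕ} (hi : 2 ≤ i) : 1 ≤ phi q i := by
  have h1 := xx_pos hq i
  have h2 : 0 < 1 - xx q i := sub_pos.2 (xx_lt_one hq hi)
  have h3 : (0 : ℚ) ≤ ((q : ℚ) + 1) / q * (xx q i / (1 - xx q i)) := by positivity
  unfold phi; linarith

theorem prodPhi_pos (hq : 2 ≤ q) : ∀ (N : ℕ) {s : ℕ}, 2 ≤ s → 1 ≤ prodPhi q s N
  | 0, _, _ => le_refl _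
  | N + 1, s, hs => one_le_mul_of_one_le_of_one_le (one_le_phi hq hs) (prodPhi_pos hq N (by omega))

theorem geom_le {x : ℚ} (h0 : 0 ≤ x) (h1 : x < 1) (M : ℕ) : ∑ d ∈ range M, x ^ (d + 1) ≤ x / (1 - x) := by
  have h2 : 0 < 1 - x := by linarith
  have h : (∑ d ∈ range M, x ^ (d + 1)) * (1 - x) = x - x ^ (M + 1) := by
    induction M with
    | zero => simp
    | succ M ih => rw [Finset.sum_range_succ, add_mul, ih]; ring
  rw [le_div_iff₀ h2, h]
  have := pow_nonneg h0 (M + 1)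
  linarith

/-- Normalised coefficients sum to at most the product. -/
theorem sum_le (hq : 2 ≤ q) : ∀ (N : ℕ) {s : ℕ}, 2 ≤ s → ∀ M : ℕ,
    ∑ m ∈ range M, (cnt q s N m : ℚ) / (q : ℚ) ^ m ≤ prodPhi q s N := by
  intro N
  induction N with
  | zero =>
    intro s _ M
    rcases Nat.eq_zero_or_pos M with rfl | hM
    · simp [prodPhi]
    · rw [Finset.sum_eq_single 0]
      · simp [cnt, prodPhi]
      · intro b _ hb; simp [cnt, hb]
      · intro h; exact absurd (Finset.mem_range.2 hM) h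
  | succ N ih =>
    intro s hs M
    have hq0 : (0 : ℚ) < q := by exact_mod_cast (show 0 < q by omega)
    have hx1 := xx_lt_one hq hs
    have hx0 := xx_pos hq s
    set w : ℕ → ℚ := fun d => (a q d : ℚ) / (q : ℚ) ^ (s * d)
    set f : ℕ → ℚ := fun m => (cnt q (s + 1) N m : ℚ) / (q : ℚ) ^ m
    have hw : ∀ d, 0 ≤ w d := fun d => by positivity
    have hf : ∀ d, 0 ≤ f d := fun d => by positivity
    have e : ∀ m ∈ range M, (cnt q s (N + 1) m : ℚ) / (q : ℚ) ^ m =
        ∑ d ∈ (range M).filter (fun d => s * d ≤ m), w d * f (m - s * d) := by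
      intro m hm
      rw [cnt, Nat.cast_sum, Finset.sum_div]
      refine Finset.sum_congr ?_ fun d hd => ?_
      · ext d
        rw [Finset.mem_range, Finset.mem_filter, Finset.mem_range, Nat.lt_succ_iff, Nat.le_div_iff_mul_le (by omega),
          mul_comm d s]
        rw [Finset.mem_range] at hm
        have := Nat.le_mul_of_pos_left d (show 0 < s by omega)
        exact ⟨fun h => ⟨by omega, h⟩, fun h => h.2⟩
      · have hdm := (Finset.mem_filter.1 hd).2
        simp only [w, f]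
        rw [Nat.cast_mul, div_mul_div_comm, ← pow_add]
        congr 2
        omega
    rw [Finset.sum_congr rfl e, Finset.sum_comm' (t' := range M) (s' := fun d => (range M).filter (fun m => s * d ≤ m))
      (fun m d => by simp only [Finset.mem_filter, Finset.mem_range]; tauto)]
    have inner : ∀ d ∈ range M, ∑ m ∈ (range M).filter (fun m => s * d ≤ m), w d * f (m - s * d) ≤
        w d * prodPhi q (s + 1) N := by
      intro d _
      rw [← Finset.mul_sum]
      refine mul_le_mul_of_nonneg_left (le_trans ?_ (ih (show 2 ≤ s + 1 by omega) M)) (hw d)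
      rw [← Finset.sum_image (f := f) (g := fun m => m - s * d)]
      · refine Finset.sum_le_sum_of_subset_of_nonneg ?_ fun _ _ _ => hf _
        intro x hx
        obtain ⟨m, hm, rfl⟩ := Finset.mem_image.1 hx
        rw [Finset.mem_range]
        exact lt_of_le_of_lt (Nat.sub_le _ _) (Finset.mem_range.1 (Finset.mem_filter.1 hm).1)
      · intro x hx y hy h
        have := (Finset.mem_filter.1 hx).2
        have := (Finset.mem_filter.1 hy).2
        simp only at h
        omega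
    refine (Finset.sum_le_sum inner).trans ?_
    rw [← Finset.sum_mul, prodPhi]
    refine mul_le_mul_of_nonneg_right ?_ (le_trans zero_le_one (prodPhi_pos hq N (by omega)))
    rcases Nat.eq_zero_or_pos M with rfl | hM
    · rw [Finset.range_zero, Finset.sum_empty]; linarith [one_le_phi hq hs]
    · obtain ⟨k, rfl⟩ : ∃ k, M = k + 1 := ⟨M - 1, by omega⟩
      rw [Finset.sum_range_succ', phi]
      have h0 : w 0 = 1 := by simp [w, a]
      rw [h0, add_comm]
      gcongr
      have hwd : ∀ d, w (d + 1) = ((q : ℚ) + 1) / q * xx q s ^ (d + 1) := fun d => by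
        simp only [w, a, xx, Nat.succ_ne_zero, if_false, Nat.add_sub_cancel]
        push_cast
        rw [mul_pow, ← pow_mul, div_pow, one_pow, pow_succ (q : ℚ) d]
        field_simp
      rw [Finset.sum_congr rfl (fun d _ => hwd d), ← Finset.mul_sum]
      exact mul_le_mul_of_nonneg_left (geom_le hx0.le hx1 k) (by positivity)

theorem Y_nonneg (hq : 2 ≤ q) (s : ℕ) : 0 ≤ Y q s := by
  have h1 : (1 : ℚ) < q := by exact_mod_cast (show 1 < q by omega)
  have h2 : (0 : ℚ) < (q : ℚ) - 1 := by linarith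
  have := xx_pos hq s
  unfold Y; positivity

theorem tail_le (hq : 2 ≤ q) : ∀ (N : ℕ) {s : ℕ}, 2 ≤ s → Y q s < 1 → prodPhi q s N * (1 - Y q s) ≤ 1 := by
  intro N
  induction N with
  | zero => intro s hs _; have := Y_nonneg hq s; simp [prodPhi]; linarith
  | succ N ih =>
    intro s hs hY
    have h1 : (1 : ℚ) < q := by exact_mod_cast (show 1 < q by omega)
    have hq0 : (q : ℚ) ≠ 0 := by positivity
    have hq1 : (q : ℚ) - 1 ≠ 0 := by linarith
    set x := xx q s with hx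
    have hx0 := xx_pos hq s
    have hx1 := xx_lt_one hq hs
    have hY' : Y q (s + 1) = Y q s - (x / q + x) := by
      simp only [Y, xx_succ hq, ← hx]
      field_simp
      ring
    have hyp : 0 < x / q + x := by rw [← hx] at hx0; positivity
    have h' := ih (show 2 ≤ s + 1 by omega) (by linarith)
    have hp := prodPhi_pos hq N (show 2 ≤ s + 1 by omega)
    have hphi : phi q s * (1 - (x / q + x)) ≤ 1 := by
      rw [phi, ← hx]
      have h2 : 0 < 1 - x := by rw [← hx] at hx1; linarith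
      field_simp
      rw [← hx] at hx0
      nlinarith [mul_pos hx0 hx0, mul_pos (mul_pos hx0 hx0) (show (0 : ℚ) < q by linarith)]
    have hY1 : 0 ≤ Y q (s + 1) := Y_nonneg hq _
    have hstep : 1 - Y q s ≤ (1 - (x / q + x)) * (1 - Y q (s + 1)) := by
      rw [hY'] at hY1 ⊢
      nlinarith [mul_nonneg hyp.le hY1]
    calc prodPhi q s (N + 1) * (1 - Y q s) ≤ (phi q s * prodPhi q (s + 1) N) * ((1 - (x / q + x)) * (1 - Y q (s + 1))) := by
          rw [prodPhi]; exact mul_le_mul_of_nonneg_left hstep (mul_nonneg (by linarith [one_le_phi hq hs]) (by linarith))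
      _ = (phi q s * (1 - (x / q + x))) * (prodPhi q (s + 1) N * (1 - Y q (s + 1))) := by ring
      _ ≤ 1 * 1 := mul_le_mul hphi h' (mul_nonneg (by linarith) (by linarith)) (by norm_num)
      _ = 1 := one_mul 1

theorem prodPhi_add (s : ℕ) : ∀ k N : ℕ, prodPhi q s (k + N) = prodPhi q s k * prodPhi q (s + k) N := by
  intro k
  induction k generalizing s with
  | zero => intro N; simp [prodPhi]
  | succ k ih =>
    intro N
    rw [show k + 1 + N = k + N + 1 by omega, prodPhi, prodPhi, ih (s + 1), show s + 1 + k = s + (k + 1) by omega, mul_assoc]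

theorem prodPhi_mono (hq : 2 ≤ q) {s : ℕ} (hs : 2 ≤ s) {N M : ℕ} (h : N ≤ M) : prodPhi q s N ≤ prodPhi q s M := by
  obtain ⟨j, rfl⟩ := Nat.exists_eq_add_of_le h
  rw [prodPhi_add]
  have := prodPhi_pos hq N hs
  have := prodPhi_pos hq j (show 2 ≤ s + N by omega)
  exact le_mul_of_one_le_right (by linarith) (by linarith)

/-- An exact prefix and a geometric tail. -/
theorem prodPhi_le (hq : 2 ≤ q) {s k : ℕ} (hs : 2 ≤ s) (hY : Y q (s + k) < 1) (N : ℕ) :
    prodPhi q s N ≤ prodPhi q s k / (1 - Y q (s + k)) := by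
  refine (prodPhi_mono hq hs (Nat.le_add_left N k)).trans ?_
  rw [le_div_iff₀ (by linarith), prodPhi_add, mul_assoc]
  exact mul_le_of_le_one_right (by linarith [prodPhi_pos hq k hs]) (tail_le hq N (by omega) hY)

theorem two_K2 (N : ℕ) : prodPhi 2 2 N ≤ 5506 / 1000 := by
  refine (prodPhi_le (le_refl 2) (le_refl 2) (k := 7) (by norm_num [Y, xx]) N).trans ?_
  norm_num [prodPhi, phi, Y, xx]

theorem two_K3 (N : ℕ) : prodPhi 2 3 N ≤ 22023 / 10000 := by
  refine (prodPhi_le (le_refl 2) (by norm_num : 2 ≤ 3) (k := 6) (by norm_num [Y, xx]) N).trans ?_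
  norm_num [prodPhi, phi, Y, xx]

theorem large_K (hq : 3 ≤ q) (N : ℕ) :
    prodPhi q 2 N ≤ 1 + ((q : ℚ) + 1) / (q : ℚ) ^ 2 + ((q : ℚ) + 1) / (q : ℚ) ^ 3 + 5 / (q : ℚ) ^ 2 := by
  have hq3 : (3 : ℚ) ≤ q := by exact_mod_cast hq
  have hx : xx q (2 + 3) = 1 / (q : ℚ) ^ 4 := by
    have : (q : ℚ) ≠ 0 := by linarith
    unfold xx; rw [one_div_pow, show 2 + 3 = 4 + 1 from rfl, pow_succ']; field_simp
  have hY : Y q (2 + 3) < 1 := by
    unfold Y
    rw [hx, div_mul_div_comm, mul_one, div_lt_one (mul_pos (by linarith) (by positivity))]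
    nlinarith [pow_le_pow_left₀ (by norm_num : (0 : ℚ) ≤ 3) hq3 4]
  refine (prodPhi_le (by omega) (le_refl 2) (k := 3) hY N).trans ?_
  have e2 : phi q 2 = 1 + ((q : ℚ) + 1) / ((q : ℚ) * (q - 1)) := by
    unfold phi xx
    have : (q : ℚ) - 1 ≠ 0 := by linarith
    field_simp
  have e3 : phi q 3 = 1 + 1 / ((q : ℚ) * (q - 1)) := by
    unfold phi xx
    have : (q : ℚ) - 1 ≠ 0 := by linarith
    have : (q : ℚ) + 1 ≠ 0 := by linarith
    have : (q : ℚ) ^ 2 - 1 ≠ 0 := by nlinarith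
    field_simp
    ring
  have e4 : phi q 4 / (1 - Y q (2 + 3)) ≤ 1 + 9 / 4 / (q : ℚ) ^ 3 := by
    rw [div_le_iff₀ (by linarith), Y, hx]
    unfold phi xx
    have : (q : ℚ) - 1 ≠ 0 := by linarith
    have h44 : (0 : ℚ) < (q : ℚ) ^ 3 - 1 := by linarith [pow_le_pow_left₀ (by norm_num : (0 : ℚ) ≤ 3) hq3 3]
    have h43 : (q : ℚ) ^ 3 - 1 ≠ 0 := h44.ne'
    have h45 : (0 : ℚ) < (q : ℚ) - 1 := by linarith
    obtain ⟨t, ht, htq⟩ : ∃ t : ℚ, 0 ≤ t ∧ (q : ℚ) = t + 3 := ⟨(q : ℚ) - 3, by linarith, by ring⟩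
    rw [show (q : ℚ) * (1 / (q : ℚ)) ^ 4 / (1 - (q : ℚ) * (1 / (q : ℚ)) ^ 4) = 1 / ((q : ℚ) ^ 3 - 1) by field_simp,
      ← sub_nonneg]
    field_simp
    rw [htq]
    ring_nf
    positivity
  have hp : prodPhi q 2 3 / (1 - Y q (2 + 3)) = phi q 2 * phi q 3 * (phi q 4 / (1 - Y q (2 + 3))) := by
    simp only [prodPhi]
    ring
  rw [hp]
  have hq2 : (2 : ℕ) ≤ q := by omega
  refine (mul_le_mul_of_nonneg_left e4 (mul_nonneg (by linarith [one_le_phi hq2 (le_refl 2)])
    (by linarith [one_le_phi hq2 (show 2 ≤ 3 by omega)]))).trans ?_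
  rw [e2, e3, ← sub_nonneg]
  obtain ⟨t, ht, htq⟩ : ∃ t : ℚ, 0 ≤ t ∧ (q : ℚ) = t + 3 := ⟨(q : ℚ) - 3, by linarith, by ring⟩
  have h45 : (0 : ℚ) < (q : ℚ) - 1 := by linarith
  field_simp
  rw [htq]
  ring_nf
  positivity

/-- The final estimate for `q ≥ 3`. -/
theorem bound_large (hq : 3 ≤ q) {n : ℕ} (hn : 2 ≤ n) (G : ℕ) (hG : G ≤ q + 1) (hGn : G ≤ n) :
    ∑ m ∈ range n, (cnt q 2 (n - 1) m : ℚ) / (q : ℚ) ^ m +
      (G : ℚ) * q * ((cnt q 2 (n - 1) n : ℚ) / (q : ℚ) ^ n) ≤ 826 / 100 := by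
  have hq3 : (3 : ℚ) ≤ q := by exact_mod_cast hq
  have hq0 : (0 : ℚ) < q := by linarith
  have hGq : (G : ℚ) ≤ q + 1 := by exact_mod_cast hG
  have hG' : (G : ℚ) ≤ n := by exact_mod_cast hGn
  have h1 : ((q : ℚ) + 1) / q ≤ 4 / 3 := by rw [div_le_div_iff₀ hq0 (by norm_num)]; linarith
  have h2 : ((q : ℚ) + 1) / (q : ℚ) ^ 2 ≤ 4 / 9 := by rw [div_le_div_iff₀ (by positivity) (by norm_num)]; nlinarith
  have h3 : ((q : ℚ) + 1) / (q : ℚ) ^ 3 ≤ 4 / 27 := by rw [div_le_div_iff₀ (by positivity) (by norm_num)]; nlinarith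
  rcases (show n = 2 ∨ n = 3 ∨ 4 ≤ n by omega) with rfl | rfl | h4
  · rw [Finset.sum_range_succ, Finset.sum_range_succ, Finset.range_zero, Finset.sum_empty, cnt_zero,
      cnt_lt q le_rfl (by norm_num), cnt_single q le_rfl (by norm_num) (by norm_num)]
    push_cast at hG' ⊢
    have e : (G : ℚ) * q * (((q : ℚ) + 1) / (q : ℚ) ^ 2) = G * (((q : ℚ) + 1) / q) := by field_simp
    rw [e]
    norm_num
    nlinarith
  · rw [Finset.sum_range_succ, Finset.sum_range_succ, Finset.sum_range_succ, Finset.range_zero, Finset.sum_empty,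
      cnt_zero, cnt_lt q le_rfl (by norm_num), cnt_single q le_rfl (by norm_num) (by norm_num),
      cnt_single q (show 2 ≤ 3 by norm_num) (by norm_num) (by norm_num)]
    push_cast at hG' ⊢
    have e : (G : ℚ) * q * (((q : ℚ) + 1) / (q : ℚ) ^ 3) = G * (((q : ℚ) + 1) / (q : ℚ) ^ 2) := by field_simp
    rw [e]
    have : 0 ≤ ((q : ℚ) + 1) / (q : ℚ) ^ 2 := by positivity
    norm_num
    nlinarith
  · set f : ℕ → ℚ := fun m => (cnt q 2 (n - 1) m : ℚ) / (q : ℚ) ^ m
    have hf : ∀ m, 0 ≤ f m := fun m => by positivity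
    have hS : ∑ m ∈ range (n + 1), f m ≤ prodPhi q 2 (n - 1) := sum_le (by omega) _ le_rfl _
    rw [Finset.sum_range_succ] at hS
    have hK := large_K hq (n - 1)
    have hL : f 0 + f 2 + f 3 ≤ ∑ m ∈ range n, f m := by
      refine le_trans (le_of_eq ?_) (Finset.sum_le_sum_of_subset_of_nonneg
        (s := {0, 2, 3}) (fun x hx => by simp at hx; simp; omega) fun _ _ _ => hf _)
      simp [Finset.sum_insert, add_assoc]
    have e0 : f 0 = 1 := by simp [f, cnt_zero]
    have e2 : f 2 = ((q : ℚ) + 1) / (q : ℚ) ^ 2 := by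
      simp [f, cnt_single q le_rfl (by norm_num) (show 2 < 2 + (n - 1) by omega)]
    have e3 : f 3 = ((q : ℚ) + 1) / (q : ℚ) ^ 3 := by
      simp [f, cnt_single q (show 2 ≤ 3 by norm_num) (by norm_num) (show 3 < 2 + (n - 1) by omega)]
    show ∑ m ∈ range n, f m + (G : ℚ) * q * f n ≤ 826 / 100
    have hc : 1 ≤ ((q : ℚ) + 1) * q := by nlinarith
    have h5 : (G : ℚ) * q * f n ≤ ((q : ℚ) + 1) * q * (5 / (q : ℚ) ^ 2 + (1 + f 2 + f 3) - ∑ m ∈ range n, f m) := by
      refine mul_le_mul (mul_le_mul_of_nonneg_right hGq hq0.le) (by linarith) (hf _) (by positivity)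
    have h6 : ((q : ℚ) + 1) * q * (5 / (q : ℚ) ^ 2) = 5 * (((q : ℚ) + 1) / q) := by field_simp
    nlinarith [mul_le_mul_of_nonneg_right hc (show 0 ≤ ∑ m ∈ range n, f m - (1 + f 2 + f 3) by linarith)]

/-- The final estimate for `q = 2`. -/
theorem bound_two {n : ℕ} (hn : 2 ≤ n) :
    ∑ m ∈ range n, (cnt 2 2 (n - 1) m : ℚ) / 2 ^ m +
      2 / 3 * ((cnt 2 2 (n - 1) n : ℚ) / 2 ^ n) + 16 / 3 * ((cnt 2 3 (n - 2) n : ℚ) / 2 ^ n) ≤ 826 / 100 := by
  set f : ℕ → ℚ := fun m => (cnt 2 2 (n - 1) m : ℚ) / 2 ^ m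
  set g : ℕ → ℚ := fun m => (cnt 2 3 (n - 2) m : ℚ) / 2 ^ m
  have hg : ∀ m, 0 ≤ g m := fun m => by positivity
  have hS : ∑ m ∈ range (n + 1), f m ≤ 5506 / 1000 := by
    have := (sum_le (q := 2) le_rfl (n - 1) le_rfl (n + 1)).trans (two_K2 (n - 1))
    simpa using this
  rw [Finset.sum_range_succ] at hS
  have hgf : g n ≤ f n := by
    refine div_le_div_of_nonneg_right ?_ (by positivity)
    obtain ⟨k, rfl⟩ : ∃ k, n = k + 2 := ⟨n - 2, by omega⟩
    rw [show k + 2 - 1 = k + 1 from rfl, show k + 2 - 2 = k from rfl]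
    refine Nat.cast_le.2 ?_
    conv_rhs => rw [cnt]
    refine le_trans (le_of_eq ?_) (Finset.single_le_sum (fun d _ => Nat.zero_le _) (Finset.mem_range.2 (Nat.succ_pos _)))
    simp [a]
  have hv : g n ≤ 5461 / 10000 := by
    rcases (show n = 2 ∨ n = 3 ∨ n = 4 ∨ n = 5 ∨ 6 ≤ n by omega) with rfl | rfl | rfl | rfl | h6
    · simp [g, cnt_lt 2 (show 1 ≤ 2 by norm_num) (show 2 < 3 by norm_num)]; norm_num
    · simp [g, cnt_single 2 (le_refl 3) (show 3 < 2 * 3 by norm_num) (show 3 < 3 + (3 - 2) by norm_num)]; norm_num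
    · simp [g, cnt_single 2 (show 3 ≤ 4 by norm_num) (show 4 < 2 * 3 by norm_num) (show 4 < 3 + (4 - 2) by norm_num)]; norm_num
    · simp [g, cnt_single 2 (show 3 ≤ 5 by norm_num) (show 5 < 2 * 3 by norm_num) (show 5 < 3 + (5 - 2) by norm_num)]; norm_num
    · have hS3 : ∑ m ∈ range (n + 1), g m ≤ 22023 / 10000 := by
        have := (sum_le (q := 2) le_rfl (n - 2) (show 2 ≤ 3 by norm_num) (n + 1)).trans (two_K3 (n - 2))
        simpa using this
      have hL : g 0 + g 3 + g 4 + g 5 + g n ≤ ∑ m ∈ range (n + 1), g m := by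
        refine le_trans (le_of_eq ?_) (Finset.sum_le_sum_of_subset_of_nonneg
          (s := {0, 3, 4, 5, n}) (fun x hx => by simp at hx; simp; omega) fun _ _ _ => hg _)
        rw [Finset.sum_insert (by simp; omega), Finset.sum_insert (by simp; omega), Finset.sum_insert (by simp; omega),
          Finset.sum_insert (by simp; omega), Finset.sum_singleton]
        ring
      have e : ∀ m, 3 ≤ m → m < 6 → g m = 3 / 2 ^ m := fun m h1 h2 => by
        simp [g, cnt_single 2 h1 (show m < 2 * 3 by omega) (show m < 3 + (n - 2) by omega)]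
      have e0 : g 0 = 1 := by simp [g, cnt_zero]
      rw [e0, e 3 (by norm_num) (by norm_num), e 4 (by norm_num) (by norm_num), e 5 (by norm_num) (by norm_num)] at hL
      norm_num at hL
      linarith
  show ∑ m ∈ range n, f m + 2 / 3 * f n + 16 / 3 * g n ≤ 826 / 100
  linarith

end Cfsg.Agent.Lib.SUClassCount.Numeric
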