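import Cfsg.Agent.Lib.SUClassCount.Conj
import Cfsg.Agent.Lib.SUClassCount.Numeric

/-!
# The number of classes of `SU`
-/

set_option autoImplicit false

namespace Cfsg.Agent.Lib.SUClassCount.Main

open Polynomial Cfsg.Agent.Lib.UnitaryConj Cfsg.Agent.Lib.GLn Cfsg.Agent.Lib.SUClassCount
open Cfsg.Agent.Lib.Classical.UnitarySemisimpleClasses
open Cfsg.Agent.Lib.GLn.ClassInvariant
open Cfsg.Agent.Lib.SUClassCount.Numeric (cnt a)

universe u

variable {K : Type u} [Field K] [Fintype K] {q : ℕ} (hK : Fintype.card K = q ^ 2)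

include hK in
theorem two_le_q : 2 ≤ q := by
  by_contra h
  have h1 := Fintype.one_lt_card (α := K)
  rcases (show q = 0 ∨ q = 1 by omega) with rfl | rfl <;> simp [hK] at h1

/-- Self-dual monic polynomials of given degree. -/
abbrev SD (d : ℕ) : Type u := {P : K[X] // P.Monic ∧ P.natDegree = d ∧ P.coeff 0 ≠ 0 ∧ dual hK P = P}

/-- Tuples of self-dual polynomials of given weighted degree, the weights starting at `s`. -/
abbrev W (s N m : ℕ) : Type u :=
  {T : Fin N → K[X] // (∀ i, (T i).Monic ∧ (T i).coeff 0 ≠ 0 ∧ dual hK (T i) = T i) ∧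
    ∑ i : Fin N, (s + (i : ℕ)) * (T i).natDegree = m}

theorem sdc_card {d : ℕ} (hd : 1 ≤ d) (c : K) :
    Finite {P : SD hK d // P.1.coeff 0 = c} ∧ Nat.card {P : SD hK d // P.1.coeff 0 = c} ≤ q ^ (d - 1) := by
  classical
  obtain ⟨k, rfl⟩ : ∃ k, d = k + 1 := ⟨d - 1, by omega⟩
  rw [Nat.add_sub_cancel]
  rcases isEmpty_or_nonempty {P : SD hK (k + 1) // P.1.coeff 0 = c} with h | ⟨⟨P0, hP0⟩⟩
  · exact ⟨inferInstance, by rw [Nat.card_of_isEmpty]; exact Nat.zero_le _⟩
  have hc : qHom hK c * c = 1 := by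
    have h1 := coeff_zero_dual hK P0.2.1
    rw [P0.2.2.2.2, hP0] at h1
    rw [mul_eq_one_iff_inv_eq₀ ((map_ne_zero (qHom hK)).2 (by rw [← hP0]; exact P0.2.2.2.1)), ← h1]
  let τ : (Fin k → K) → (Fin k → K) := fun v i => c * qHom hK (v i.rev)
  have hcard : Nat.card {v : Fin k → K // τ v = v} = q ^ k :=
    card_fixed hK τ (fun a b => funext fun i => by simp only [τ, Pi.add_apply, map_add, mul_add])
      (fun x a => funext fun i => by simp only [τ, Pi.smul_apply, smul_eq_mul, map_mul]; ring)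
      (fun a => funext fun i => by
        simp only [τ, map_mul, qHom_qHom, Fin.rev_rev, ← mul_assoc]
        rw [mul_comm c, hc, one_mul])
  have hmem : ∀ P : {P : SD hK (k + 1) // P.1.coeff 0 = c},
      τ (fun i : Fin k => P.1.1.coeff ((i : ℕ) + 1)) = fun i : Fin k => P.1.1.coeff ((i : ℕ) + 1) := fun P => funext fun i => by
    have h1 := congrArg (fun Q : K[X] => Q.coeff ((i : ℕ) + 1)) P.1.2.2.2.2
    rw [coeff_dual hK _ (by rw [P.1.2.2.1]; omega), P.2, P.1.2.2.1, inv_eq_of_mul_eq_one_right hc] at h1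
    show c * qHom hK (P.1.1.coeff ((i.rev : ℕ) + 1)) = _
    rw [Fin.val_rev, show k - ((i : ℕ) + 1) + 1 = k + 1 - ((i : ℕ) + 1) by omega]
    exact h1
  let Φ : {P : SD hK (k + 1) // P.1.coeff 0 = c} → {v : Fin k → K // τ v = v} := fun P => ⟨fun i : Fin k => P.1.1.coeff ((i : ℕ) + 1), hmem P⟩
  have hΦ : Function.Injective Φ := fun P Q e => by
    have e' := congrArg Subtype.val e
    refine Subtype.ext (Subtype.ext (Polynomial.ext fun i => ?_))
    rcases lt_trichotomy i (k + 1) with h | rfl | h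
    · rcases Nat.eq_zero_or_pos i with rfl | hi
      · rw [P.2, Q.2]
      · have := congrFun e' ⟨i - 1, by omega⟩
        dsimp only [Φ] at this
        rwa [show i - 1 + 1 = i by omega] at this
    · have h1 := P.1.2.1.coeff_natDegree
      have h2 := Q.1.2.1.coeff_natDegree
      rw [P.1.2.2.1] at h1
      rw [Q.1.2.2.1] at h2
      rw [h1, h2]
    · rw [coeff_eq_zero_of_natDegree_lt (by rw [P.1.2.2.1]; omega), coeff_eq_zero_of_natDegree_lt (by rw [Q.1.2.2.1]; omega)]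
  exact ⟨Finite.of_injective Φ hΦ, (Nat.card_le_card_of_injective Φ hΦ).trans hcard.le⟩

theorem sd_card (d : ℕ) : Finite (SD hK d) ∧ Nat.card (SD hK d) ≤ a q d := by
  classical
  rcases Nat.eq_zero_or_pos d with rfl | hd
  · haveI : Subsingleton (SD hK 0) := ⟨fun a b => Subtype.ext (by
      rw [eq_one_of_monic_natDegree_zero a.2.1 a.2.2.1, eq_one_of_monic_natDegree_zero b.2.1 b.2.2.1])⟩
    exact ⟨inferInstance, by rw [a, if_pos rfl]; exact Finite.card_le_one_iff_subsingleton.2 inferInstance⟩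
  let R : Finset K := (Polynomial.nthRoots (q + 1) (1 : K)).toFinset
  have hR : ∀ P : SD hK d, P.1.coeff 0 ∈ R := fun P => by
    rw [Multiset.mem_toFinset, Polynomial.mem_nthRoots (Nat.succ_pos q)]
    have h1 := coeff_zero_dual hK P.2.1
    rw [P.2.2.2.2] at h1
    show P.1.coeff 0 ^ (q + 1) = 1
    rw [pow_succ']
    conv_lhs => arg 1; rw [h1]
    exact inv_mul_cancel₀ ((map_ne_zero (qHom hK)).2 P.2.2.2.1)
  let Φ : SD hK d → Σ c : R, {P : SD hK d // P.1.coeff 0 = c.1} := fun P => ⟨⟨_, hR P⟩, P, rfl⟩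
  have hΦ : Function.Injective Φ := fun P Q e => congrArg (fun x : Σ c : R, {P : SD hK d // P.1.coeff 0 = c.1} => x.2.1) e
  haveI := fun c : R => (sdc_card hK hd c.1).1
  refine ⟨Finite.of_injective Φ hΦ, (Nat.card_le_card_of_injective Φ hΦ).trans ?_⟩
  rw [Nat.card_sigma, a, if_neg (by omega)]
  refine (Finset.sum_le_card_nsmul _ _ (q ^ (d - 1)) fun c _ => (sdc_card hK hd c.1).2).trans ?_
  rw [smul_eq_mul, Finset.card_univ, Fintype.card_coe]
  exact Nat.mul_le_mul_right _ ((Multiset.toFinset_card_le _).trans (Polynomial.card_nthRoots _ _))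

theorem head_weight {s N m : ℕ} (T : W hK s (N + 1) m) :
    s * (T.1 0).natDegree + ∑ i : Fin N, (s + 1 + (i : ℕ)) * (T.1 i.succ).natDegree = m := by
  conv_rhs => rw [← T.2.2, Fin.sum_univ_succ]
  congr 1
  exact Finset.sum_congr rfl fun i _ => by rw [Fin.val_succ]; ring

theorem head_le {s N m : ℕ} (T : W hK s (N + 1) m) : s * (T.1 0).natDegree ≤ m :=
  (Nat.le_add_right _ _).trans (head_weight hK T).le

/-- The tail of a tuple. -/
def tailW {s N m : ℕ} (T : W hK s (N + 1) m) : W hK (s + 1) N (m - s * (T.1 0).natDegree) :=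
  ⟨Fin.tail T.1, fun i => T.2.1 _, by have := head_weight hK T; simp only [Fin.tail]; omega⟩

theorem w_card : ∀ (N : ℕ) {s : ℕ}, 1 ≤ s → ∀ m, Finite (W hK s N m) ∧ Nat.card (W hK s N m) ≤ cnt q s N m := by
  classical
  intro N
  induction N with
  | zero =>
    intro s _ m
    haveI : Subsingleton (W hK s 0 m) := ⟨fun a b => Subtype.ext (funext fun i => i.elim0)⟩
    refine ⟨inferInstance, ?_⟩
    by_cases hm : m = 0
    · rw [Numeric.cnt, if_pos hm]
      exact Finite.card_le_one_iff_subsingleton.2 inferInstance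
    · haveI : IsEmpty (W hK s 0 m) := ⟨fun T => hm (by simpa using T.2.2.symm)⟩
      rw [Nat.card_of_isEmpty]
      exact Nat.zero_le _
  | succ N ih =>
    intro s hs m
    haveI hfin : ∀ d : Fin (m / s + 1), Finite (SD hK d × W hK (s + 1) N (m - s * d)) := fun d => by
      haveI := (sd_card hK (d : ℕ)).1
      haveI := (ih (show 1 ≤ s + 1 by omega) (m - s * d)).1
      infer_instance
    let Φ : W hK s (N + 1) m → Σ d : Fin (m / s + 1), SD hK d × W hK (s + 1) N (m - s * d) := fun T =>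
      ⟨⟨(T.1 0).natDegree, Nat.lt_succ_of_le ((Nat.le_div_iff_mul_le hs).2 (by rw [mul_comm]; exact head_le hK T))⟩,
        ⟨T.1 0, (T.2.1 0).1, rfl, (T.2.1 0).2.1, (T.2.1 0).2.2⟩, tailW hK T⟩
    have hinj : Function.Injective Φ := fun T U h => by
      have h1 := congrArg (fun x : Σ d : Fin (m / s + 1), SD hK d × W hK (s + 1) N (m - s * d) => (x.2.1.1, x.2.2.1)) h
      simp only [Φ, Prod.mk.injEq, tailW] at h1
      exact Subtype.ext (funext fun i => Fin.cases h1.1 (fun j => congrFun h1.2 j) i)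
    refine ⟨Finite.of_injective Φ hinj, (Nat.card_le_card_of_injective Φ hinj).trans ?_⟩
    rw [Nat.card_sigma, Numeric.cnt, ← Fin.sum_univ_eq_sum_range (fun d => a q d * cnt q (s + 1) N (m - s * d))]
    refine Finset.sum_le_sum fun d _ => ?_
    rw [Nat.card_prod]
    exact Nat.mul_le_mul (sd_card hK d).2 (ih (show 1 ≤ s + 1 by omega) _).2

/-- Determinant of a tuple. -/
noncomputable def rdet (s : ℕ) {N : ℕ} (T : Fin N → K[X]) : K :=
  ∏ i : Fin N, ((-1) ^ (T i).natDegree * (T i).coeff 0) ^ (s + (i : ℕ))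

omit [Fintype K] in
theorem rdet_one {N : ℕ} (T : Fin N → K[X]) : rdet 1 T = tdet T :=
  Finset.prod_congr rfl fun i _ => by rw [add_comm]

omit [Fintype K] in
theorem rdet_succ (s : ℕ) {N : ℕ} (T : Fin (N + 1) → K[X]) :
    rdet s T = ((-1) ^ (T 0).natDegree * (T 0).coeff 0) ^ s * rdet (s + 1) (Fin.tail T) := by
  rw [rdet, rdet, Fin.prod_univ_succ]
  congr 1
  exact Finset.prod_congr rfl fun i _ => by rw [Fin.tail, Fin.val_succ]; ring

/-- Tuples of determinant one with non-trivial first entry. -/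
theorem head_card {s N m : ℕ} (hs : 1 ≤ s) (root : K → K) (hroot : ∀ x, root (x ^ s) = x) :
    Finite {T : W hK s (N + 1) m // rdet s T.1 = 1 ∧ T.1 0 ≠ 1} ∧
      Nat.card {T : W hK s (N + 1) m // rdet s T.1 = 1 ∧ T.1 0 ≠ 1} ≤
        ∑ d ∈ Finset.range (m / s), q ^ d * cnt q (s + 1) N (m - s * (d + 1)) := by
  classical
  let f : ∀ d : Fin (m / s), W hK (s + 1) N (m - s * ((d : ℕ) + 1)) → K := fun d S =>
    (-1) ^ ((d : ℕ) + 1) * root (rdet (s + 1) S.1)⁻¹
  let C : Fin (m / s) → Type u := fun d =>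
    Σ S : W hK (s + 1) N (m - s * ((d : ℕ) + 1)), {P : SD hK ((d : ℕ) + 1) // P.1.coeff 0 = f d S}
  haveI hC : ∀ d, Finite (C d) := fun d => by
    haveI := (w_card hK N (show 1 ≤ s + 1 by omega) (m - s * ((d : ℕ) + 1))).1
    haveI := fun S => (sdc_card hK (Nat.succ_pos (d : ℕ)) (f d S)).1
    exact inferInstanceAs (Finite (Σ S : W hK (s + 1) N (m - s * ((d : ℕ) + 1)), {P : SD hK ((d : ℕ) + 1) // P.1.coeff 0 = f d S}))
  have hpos : ∀ T : {T : W hK s (N + 1) m // rdet s T.1 = 1 ∧ T.1 0 ≠ 1}, 1 ≤ (T.1.1 0).natDegree := fun T =>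
    Nat.pos_of_ne_zero fun h => T.2.2 (eq_one_of_monic_natDegree_zero (T.1.2.1 0).1 h)
  have hlt : ∀ T : {T : W hK s (N + 1) m // rdet s T.1 = 1 ∧ T.1 0 ≠ 1}, (T.1.1 0).natDegree - 1 < m / s := fun T => by
    have h1 : (T.1.1 0).natDegree ≤ m / s := (Nat.le_div_iff_mul_le hs).2 (by rw [mul_comm]; exact head_le hK T.1)
    have := hpos T
    omega
  have hc : ∀ T : {T : W hK s (N + 1) m // rdet s T.1 = 1 ∧ T.1 0 ≠ 1},
      (T.1.1 0).coeff 0 = (-1) ^ ((T.1.1 0).natDegree - 1 + 1) * root (rdet (s + 1) (Fin.tail T.1.1))⁻¹ := fun T => by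
    have h1 := T.2.1
    rw [rdet_succ] at h1
    rw [← eq_inv_of_mul_eq_one_left h1, hroot, Nat.sub_add_cancel (hpos T), ← mul_assoc, ← mul_pow]
    simp
  let Φ : {T : W hK s (N + 1) m // rdet s T.1 = 1 ∧ T.1 0 ≠ 1} → Σ d, C d := fun T =>
    ⟨⟨_, hlt T⟩, ⟨⟨Fin.tail T.1.1, fun i => T.1.2.1 _, by
        have h1 := head_weight hK T.1
        have h2 : s * ((T.1.1 0).natDegree - 1 + 1) = s * (T.1.1 0).natDegree := by rw [Nat.sub_add_cancel (hpos T)]
        simp only [Fin.tail]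
        omega⟩,
      ⟨⟨T.1.1 0, (T.1.2.1 0).1, (Nat.sub_add_cancel (hpos T)).symm, (T.1.2.1 0).2.1, (T.1.2.1 0).2.2⟩, hc T⟩⟩⟩
  have hinj : Function.Injective Φ := fun T U h => by
    have h1 := congrArg (fun x : Σ d, C d => (x.2.2.1.1, x.2.1.1)) h
    simp only [Φ, Prod.mk.injEq] at h1
    exact Subtype.ext (Subtype.ext (funext fun i => Fin.cases h1.1 (fun j => congrFun h1.2 j) i))
  refine ⟨Finite.of_injective Φ hinj, (Nat.card_le_card_of_injective Φ hinj).trans ?_⟩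
  rw [Nat.card_sigma, ← Fin.sum_univ_eq_sum_range (fun d => q ^ d * cnt q (s + 1) N (m - s * (d + 1)))]
  refine Finset.sum_le_sum fun d _ => ?_
  haveI := (w_card hK N (show 1 ≤ s + 1 by omega) (m - s * ((d : ℕ) + 1))).1
  haveI := fun S => (sdc_card hK (Nat.succ_pos (d : ℕ)) (f d S)).1
  letI := Fintype.ofFinite (W hK (s + 1) N (m - s * ((d : ℕ) + 1)))
  show Nat.card (Σ S : W hK (s + 1) N (m - s * ((d : ℕ) + 1)), {P : SD hK ((d : ℕ) + 1) // P.1.coeff 0 = f d S}) ≤ _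
  rw [Nat.card_sigma]
  refine (Finset.sum_le_card_nsmul _ _ (q ^ (d : ℕ)) fun S _ => (sdc_card hK (Nat.succ_pos (d : ℕ)) (f d S)).2).trans ?_
  rw [smul_eq_mul, Finset.card_univ, ← Nat.card_eq_fintype_card, mul_comm]
  exact Nat.mul_le_mul_left _ (w_card hK N (show 1 ≤ s + 1 by omega) _).2

/-- Tuples with trivial first entry. -/
theorem rest_card {s N m : ℕ} (hs : 1 ≤ s) (P : W hK s (N + 1) m → Prop) (Q : W hK (s + 1) N m → Prop)
    (hPQ : ∀ T, T.1 0 = 1 → P T → ∀ S : W hK (s + 1) N m, S.1 = Fin.tail T.1 → Q S) :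
    Finite {T : W hK s (N + 1) m // P T ∧ T.1 0 = 1} ∧
      Nat.card {T : W hK s (N + 1) m // P T ∧ T.1 0 = 1} ≤ Nat.card {S : W hK (s + 1) N m // Q S} := by
  haveI := (w_card hK N (show 1 ≤ s + 1 by omega) m).1
  let Φ : {T : W hK s (N + 1) m // P T ∧ T.1 0 = 1} → {S : W hK (s + 1) N m // Q S} := fun T =>
    ⟨⟨Fin.tail T.1.1, fun i => T.1.2.1 _, by
      have h1 := head_weight hK T.1
      rw [T.2.2, natDegree_one, mul_zero, zero_add] at h1
      exact h1⟩, hPQ T.1 T.2.2 T.2.1 _ rfl⟩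
  have hinj : Function.Injective Φ := fun T U h => by
    have h1 := congrArg (fun x : {S : W hK (s + 1) N m // Q S} => x.1.1) h
    simp only [Φ] at h1
    exact Subtype.ext (Subtype.ext (funext fun i => Fin.cases (T.2.2.trans U.2.2.symm) (fun j => congrFun h1 j) i))
  exact ⟨Finite.of_injective Φ hinj, Nat.card_le_card_of_injective Φ hinj⟩

/-- The norm one units. -/
def mu (K : Type u) [Field K] (q : ℕ) : Subgroup Kˣ := (powMonoidHom (q + 1) : Kˣ →* Kˣ).ker

include hK in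
theorem card_units : Nat.card Kˣ = (q - 1) * (q + 1) := by
  classical
  rw [Nat.card_eq_fintype_card, Fintype.card_units, hK]
  obtain ⟨j, rfl⟩ : ∃ j, q = j + 1 := ⟨q - 1, by have := two_le_q hK; omega⟩
  rw [Nat.add_sub_cancel]
  refine Nat.sub_eq_of_eq_add ?_
  ring

include hK in
theorem card_mu : Nat.card (mu K q) = q + 1 := by
  rw [mu, IsCyclic.card_powMonoidHom_ker, card_units hK, Nat.gcd_eq_right (dvd_mul_left _ _)]

include hK in
/-- Hilbert 90. -/
theorem exists_div {ζ : Kˣ} (hζ : ζ ∈ mu K q) : ∃ c : Kˣ, (c : K) * (qHom hK (c : K))⁻¹ = (ζ : K) := by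
  have hle : (powMonoidHom (q - 1) : Kˣ →* Kˣ).range ≤ mu K q := by
    rintro _ ⟨c, rfl⟩
    rw [mu, MonoidHom.mem_ker, powMonoidHom_apply, powMonoidHom_apply, ← pow_mul, ← card_units hK, pow_card_eq_one']
  have hcard : Nat.card (powMonoidHom (q - 1) : Kˣ →* Kˣ).range = q + 1 := by
    have h := Subgroup.card_mul_index (powMonoidHom (q - 1) : Kˣ →* Kˣ).range
    rw [IsCyclic.index_powMonoidHom_range, card_units hK, Nat.gcd_eq_right (dvd_mul_right _ _), mul_comm (q - 1)] at h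
    exact Nat.eq_of_mul_eq_mul_right (by have := two_le_q hK; omega) h
  have heq : (powMonoidHom (q - 1) : Kˣ →* Kˣ).range = mu K q :=
    Subgroup.eq_of_le_of_card_ge hle (by rw [card_mu hK, hcard])
  obtain ⟨c, rfl⟩ := heq.symm ▸ hζ
  refine ⟨c⁻¹, ?_⟩
  show ((c⁻¹ : Kˣ) : K) * (((c⁻¹ : Kˣ) : K) ^ q)⁻¹ = ((c ^ (q - 1) : Kˣ) : K)
  rw [Units.val_inv_eq_inv_val, inv_pow, inv_inv, Units.val_pow_eq_pow_val]
  obtain ⟨j, hj⟩ : ∃ j, q = j + 1 := ⟨q - 1, by have := two_le_q hK; omega⟩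
  rw [hj, Nat.add_sub_cancel, pow_succ']
  rw [← mul_assoc, inv_mul_cancel₀ (Units.ne_zero c), one_mul]

variable {n : ℕ}

/-- The inclusion in `GU`. -/
def emb (h : ↥(Cfsg.SU n K q)) : GL (Fin n) K := Matrix.SpecialLinearGroup.toGL (h : Matrix.SpecialLinearGroup (Fin n) K)

omit [Fintype K] in
theorem emb_mem (h : ↥(Cfsg.SU n K q)) : emb h ∈ Cfsg.GU n K q := fun a b => h.2 a b

/-- The invariant of an element of `SU`. -/
noncomputable def invW (hn : 1 ≤ n) (h : ↥(Cfsg.SU n K q)) : W hK 1 n n :=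
  ⟨(tup hn (emb h)).1, fun i => ⟨((tup hn (emb h)).2.1 i).1, ((tup hn (emb h)).2.1 i).2, tup_dual hK hn _ (emb_mem h) i⟩, by
    refine Eq.trans (Finset.sum_congr rfl fun i _ => ?_) (tup hn (emb h)).2.2
    rw [add_comm]⟩

theorem invW_det (hn : 1 ≤ n) (h : ↥(Cfsg.SU n K q)) : rdet 1 (invW hK hn h).1 = 1 := by
  rw [rdet_one]
  show tdet (tup hn (emb h)).1 = 1
  rw [← det_tup]
  exact (h : Matrix.SpecialLinearGroup (Fin n) K).2

include hK in
/-- A unitary centralizing element of determinant `ζ ^ (i + 1)` on the support. -/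
theorem exists_det_support (hn : 1 ≤ n) (g : GL (Fin n) K) (hg : g ∈ Cfsg.GU n K q) (i : Fin n)
    (hi : (tup hn g).1 i ≠ 1) {ζ : Kˣ} (hζ : ζ ∈ mu K q) :
    ∃ u : GL (Fin n) K, u ∈ Cfsg.GU n K q ∧ Commute u g ∧ Matrix.GeneralLinearGroup.det u = ζ ^ ((i : ℕ) + 1) := by
  classical
  obtain ⟨c, hc⟩ := exists_div hK hζ
  set D := (exists_decomp g hn).some
  obtain ⟨j, hj⟩ : ∃ j, D.e j = (i : ℕ) + 1 := by
    by_contra hcon
    push Not at hcon
    apply hi
    show D.tupFun i = 1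
    rw [Decomp.tupFun, Decomp.parts, Finset.filter_false_of_mem fun j _ => hcon j]
    simp
  obtain ⟨z, hz, hzd⟩ := D.exists_commute_det j c
  obtain ⟨u, hu, hug, hud⟩ := exists_unitary_det hK g hg z hz
  refine ⟨u, hu, hug, Units.ext ?_⟩
  have h1 : (z : Matrix (Fin n) (Fin n) K).det = (c : K) ^ ((i : ℕ) + 1) := by
    rw [← hj, ← Units.val_pow_eq_pow_val, ← hzd]; rfl
  show (u : Matrix (Fin n) (Fin n) K).det = _
  rw [hud, h1, map_pow, ← inv_pow, ← mul_pow, hc, Units.val_pow_eq_pow_val]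

include hK in
theorem det_mem_mu (u : GL (Fin n) K) (hu : u ∈ Cfsg.GU n K q) : Matrix.GeneralLinearGroup.det u ∈ mu K q := by
  rw [mu, MonoidHom.mem_ker, powMonoidHom_apply]
  have h := congrArg Matrix.det ((mem_GU_iff hK u).1 hu)
  rw [Matrix.det_mul, det_tstar hK, Matrix.det_one] at h
  refine Units.ext ?_
  rw [Units.val_pow_eq_pow_val, Units.val_one, pow_succ]
  exact h

include hK in
/-- Splitting of `GU`-classes in `SU`. -/
theorem classes_le (hn : 1 ≤ n) (R : W hK 1 n n → Prop)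
    (hR : ∀ T, R T → ∃ i : Fin n, T.1 i ≠ 1 ∧ ((i : ℕ) + 1).Coprime (q + 1)) :
    Nat.card (ConjClasses ↥(Cfsg.SU n K q)) ≤
      Nat.card {T : W hK 1 n n // rdet 1 T.1 = 1 ∧ R T} +
        Nat.gcd (q + 1) n * Nat.card {T : W hK 1 n n // rdet 1 T.1 = 1 ∧ ¬ R T} := by
  classical
  haveI := (w_card hK n (le_refl 1) n).1
  haveI : Nonempty ↥(Cfsg.SU n K q) := ⟨1⟩
  let r : W hK 1 n n → ↥(Cfsg.SU n K q) := Function.invFun (invW hK hn)
  have hx : ∀ h : ↥(Cfsg.SU n K q), ∃ x : GL (Fin n) K, x ∈ Cfsg.GU n K q ∧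
      x * emb (r (invW hK hn h)) * x⁻¹ = emb h := fun h => by
    have e : invW hK hn (r (invW hK hn h)) = invW hK hn h := Function.invFun_eq ⟨h, rfl⟩
    have hc := isConj_of_tup_eq hn (g := emb (r (invW hK hn h))) (h := emb h) (Subtype.ext (show (tup hn _).1 = (tup hn _).1 from congrArg (fun T : W hK 1 n n => T.1) e))
    obtain ⟨x, hx⟩ := isConj_iff.1 (isConj_GU_of_isConj hK ⟨_, emb_mem _⟩ ⟨_, emb_mem h⟩ hc)
    exact ⟨x, x.2, congrArg Subtype.val hx⟩
  choose x hxU hx using hx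
  let δ : ↥(Cfsg.SU n K q) → mu K q := fun h => ⟨_, det_mem_mu hK _ (hxU h)⟩
  let H : Subgroup (mu K q) := (powMonoidHom n : mu K q →* mu K q).range
  have main : ∀ h h', invW hK hn h' = invW hK hn h →
      (∃ u : GL (Fin n) K, u ∈ Cfsg.GU n K q ∧ Commute u (emb (r (invW hK hn h))) ∧
        Matrix.GeneralLinearGroup.det u = ((δ h)⁻¹ * δ h' : mu K q)) → IsConj h h' := by
    rintro h h' hT ⟨u, huU, hug, hud⟩
    have hh' := hx h'
    rw [hT] at hh'
    set y := x h' * u⁻¹ * (x h)⁻¹ with hy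
    have hyU : y ∈ Cfsg.GU n K q := mul_mem (mul_mem (hxU h') (inv_mem huU)) (inv_mem (hxU h))
    have hyd : (y : Matrix (Fin n) (Fin n) K).det = 1 := by
      have h1 : Matrix.GeneralLinearGroup.det y = 1 := by
        rw [hy, map_mul, map_mul, map_inv, map_inv, hud, Subgroup.coe_mul, InvMemClass.coe_inv]
        show _ * ((Matrix.GeneralLinearGroup.det (x h))⁻¹ * Matrix.GeneralLinearGroup.det (x h'))⁻¹ * _ = 1
        rw [_root_.mul_inv_rev, inv_inv]
        group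
      exact congrArg Units.val h1
    let y' : ↥(Cfsg.SU n K q) := ⟨⟨_, hyd⟩, fun a b => hyU a b⟩
    have hye : emb y' = y := Units.ext rfl
    refine isConj_iff.2 ⟨y', ?_⟩
    have hinj : Function.Injective (fun h : ↥(Cfsg.SU n K q) => emb h) := fun a b e =>
      Subtype.ext (Matrix.SpecialLinearGroup.toGL_injective e)
    refine hinj ?_
    have em : ∀ a b : ↥(Cfsg.SU n K q), emb (a * b) = emb a * emb b := fun a b => map_mul Matrix.SpecialLinearGroup.toGL _ _
    have ei : ∀ a : ↥(Cfsg.SU n K q), emb a⁻¹ = (emb a)⁻¹ := fun a => map_inv Matrix.SpecialLinearGroup.toGL _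
    show emb (y' * h * y'⁻¹) = emb h'
    rw [em, em, ei, hye, ← hx h, ← hh', hy]
    calc x h' * u⁻¹ * (x h)⁻¹ * (x h * emb (r (invW hK hn h)) * (x h)⁻¹) * (x h' * u⁻¹ * (x h)⁻¹)⁻¹
        = x h' * (u⁻¹ * emb (r (invW hK hn h))) * u * (x h')⁻¹ := by group
      _ = x h' * emb (r (invW hK hn h)) * (x h')⁻¹ := by rw [hug.inv_left.eq]; group
  have hinv : ∀ h, invW hK hn (r (invW hK hn h)) = invW hK hn h := fun h => Function.invFun_eq ⟨h, rfl⟩
  have good : ∀ h h', invW hK hn h' = invW hK hn h → R (invW hK hn h) → IsConj h h' := by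
    intro h h' hT hr
    obtain ⟨i, hi, hcop⟩ := hR _ hr
    have hi' : (tup hn (emb (r (invW hK hn h)))).1 i ≠ 1 := by
      rw [show (tup hn (emb (r (invW hK hn h)))).1 = (invW hK hn h).1 from congrArg (fun T : W hK 1 n n => T.1) (hinv h)]
      exact hi
    set t := (δ h)⁻¹ * δ h'
    have hco : (Nat.card (mu K q)).Coprime ((i : ℕ) + 1) := by rw [card_mu hK]; exact hcop.symm
    obtain ⟨η, hη⟩ := (powCoprime hco).surjective t
    obtain ⟨u, hu, hug, hud⟩ := exists_det_support hK hn _ (emb_mem _) i hi' η.2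
    refine main h h' hT ⟨u, hu, hug, ?_⟩
    rw [hud]
    exact congrArg Subtype.val hη
  have scal : ∀ h h', invW hK hn h' = invW hK hn h → (δ h)⁻¹ * δ h' ∈ H → IsConj h h' := by
    rintro h h' hT ⟨η, hη⟩
    let u : GL (Fin n) K := Units.map (Matrix.scalar (Fin n) : K →+* Matrix (Fin n) (Fin n) K).toMonoidHom (η : Kˣ)
    have hu : (u : Matrix (Fin n) (Fin n) K) = ((η : Kˣ) : K) • 1 := by
      show Matrix.scalar (Fin n) ((η : Kˣ) : K) = _
      rw [Matrix.scalar_apply, Matrix.smul_one_eq_diagonal]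
    have hηn : qHom hK ((η : Kˣ) : K) * ((η : Kˣ) : K) = 1 := by
      have h1 : (η : Kˣ) ^ (q + 1) = 1 := η.2
      have h2 := congrArg Units.val h1
      rw [Units.val_pow_eq_pow_val, pow_succ, Units.val_one] at h2
      exact h2
    refine main h h' hT ⟨u, ?_, Units.ext ?_, Units.ext ?_⟩
    · rw [mem_GU_iff hK, hu, tstar_smul, tstar_one, smul_mul_smul_comm, hηn, one_smul, one_mul]
    · rw [Units.val_mul, Units.val_mul, hu, Matrix.smul_mul, Matrix.mul_smul, one_mul, mul_one]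
    · rw [← hη]
      show (u : Matrix (Fin n) (Fin n) K).det = ((((η ^ n : mu K q)) : Kˣ) : K)
      rw [hu, Matrix.det_smul, Matrix.det_one, mul_one, Fintype.card_fin, SubgroupClass.coe_pow, Units.val_pow_eq_pow_val]
  let A := {T : W hK 1 n n // rdet 1 T.1 = 1 ∧ R T}
  let B := {T : W hK 1 n n // rdet 1 T.1 = 1 ∧ ¬ R T}
  let Θ : ConjClasses ↥(Cfsg.SU n K q) → A ⊕ B × (mu K q ⧸ H) := fun c =>
    if hr : R (invW hK hn (Quotient.out c)) then Sum.inl ⟨_, invW_det hK hn _, hr⟩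
    else Sum.inr (⟨_, invW_det hK hn _, hr⟩, QuotientGroup.mk (δ (Quotient.out c)))
  have hΘ : Function.Injective Θ := by
    intro c c' e
    rw [← Quotient.out_eq c, ← Quotient.out_eq c']
    refine Quotient.sound ?_
    by_cases h1 : R (invW hK hn (Quotient.out c))
    · by_cases h2 : R (invW hK hn (Quotient.out c'))
      · simp only [Θ, dif_pos h1, dif_pos h2, Sum.inl.injEq] at e
        exact good _ _ (congrArg Subtype.val e).symm h1
      · simp [Θ, dif_pos h1, dif_neg h2] at e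
    · by_cases h2 : R (invW hK hn (Quotient.out c'))
      · simp [Θ, dif_neg h1, dif_pos h2] at e
      · simp only [Θ, dif_neg h1, dif_neg h2, Sum.inr.injEq, Prod.mk.injEq] at e
        exact scal _ _ (congrArg Subtype.val e.1).symm (QuotientGroup.eq.1 e.2)
  refine (Nat.card_le_card_of_injective Θ hΘ).trans (le_of_eq ?_)
  rw [Nat.card_sum, Nat.card_prod, ← Subgroup.index_eq_card, IsCyclic.index_powMonoidHom_range, card_mu hK, mul_comm]

include hK in
/-- The count with weight one peeled off. -/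
theorem upper_gen {k : ℕ} :
    Nat.card (ConjClasses ↥(Cfsg.SU (k + 1) K q)) ≤
      ∑ d ∈ Finset.range (k + 1), q ^ d * cnt q 2 k (k + 1 - (d + 1)) + Nat.gcd (q + 1) (k + 1) * cnt q 2 k (k + 1) := by
  classical
  haveI := (w_card hK (k + 1) (le_refl 1) (k + 1)).1
  refine (classes_le hK (Nat.succ_pos k) (fun T => T.1 0 ≠ 1) fun T h => ⟨0, h, by simp⟩).trans (Nat.add_le_add ?_ ?_)
  · have h := (head_card hK (s := 1) (N := k) (m := k + 1) le_rfl id (fun x => pow_one x)).2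
    simpa only [Nat.div_one, one_mul] using h
  · refine Nat.mul_le_mul_left _ ?_
    haveI := (w_card hK k (show 1 ≤ 1 + 1 by omega) (k + 1)).1
    have h1 : Nat.card {T : W hK 1 (k + 1) (k + 1) // rdet 1 T.1 = 1 ∧ ¬ T.1 0 ≠ 1} ≤
        Nat.card {S : W hK (1 + 1) k (k + 1) // True} := by
      refine le_trans (le_of_eq (Nat.card_congr (Equiv.subtypeEquivRight
        (q := fun T : W hK 1 (k + 1) (k + 1) => rdet 1 T.1 = 1 ∧ T.1 0 = 1) fun T => by simp only [not_not]))) ?_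
      exact (rest_card hK le_rfl (fun T => rdet 1 T.1 = 1) (fun _ => True) fun _ _ _ _ _ => trivial).2
    refine h1.trans ?_
    rw [Nat.card_congr (Equiv.subtypeUnivEquiv fun _ => trivial)]
    exact (w_card hK k (by omega) _).2

include hK in
/-- For `q = 2` weight two is peeled off as well. -/
theorem upper_two (hq : q = 2) {k : ℕ} :
    Nat.card (ConjClasses ↥(Cfsg.SU (k + 2) K q)) ≤
      ∑ d ∈ Finset.range (k + 2), q ^ d * cnt q 2 (k + 1) (k + 2 - (d + 1)) +
        ∑ e ∈ Finset.range ((k + 2) / 2), q ^ e * cnt q 3 k (k + 2 - 2 * (e + 1)) + 3 * cnt q 3 k (k + 2) := by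
  classical
  haveI := (w_card hK (k + 2) (le_refl 1) (k + 2)).1
  haveI := (w_card hK (k + 1) (show 1 ≤ 1 + 1 by omega) (k + 2)).1
  haveI := (w_card hK k (show 1 ≤ 1 + 1 + 1 by omega) (k + 2)).1
  refine (classes_le hK (by omega) (fun T => T.1 0 ≠ 1 ∨ T.1 1 ≠ 1) fun T h => ?_).trans ?_
  · rcases h with h | h
    · exact ⟨0, h, by simp⟩
    · exact ⟨1, h, by rw [hq]; norm_num⟩
  have hroot : ∀ x : K, (fun y : K => y ^ 2) (x ^ 2) = x := fun x => by
    have := FiniteField.pow_card x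
    rw [hK, hq] at this
    show (x ^ 2) ^ 2 = x
    rw [← pow_mul]
    exact this
  have hA : Nat.card {T : W hK 1 (k + 2) (k + 2) // rdet 1 T.1 = 1 ∧ (T.1 0 ≠ 1 ∨ T.1 1 ≠ 1)} ≤
      ∑ d ∈ Finset.range (k + 2), q ^ d * cnt q 2 (k + 1) (k + 2 - (d + 1)) +
        ∑ e ∈ Finset.range ((k + 2) / 2), q ^ e * cnt q 3 k (k + 2 - 2 * (e + 1)) := by
    let P : W hK 1 (k + 2) (k + 2) → Prop := fun T => rdet 1 T.1 = 1 ∧ T.1 1 ≠ 1
    let Q : W hK (1 + 1) (k + 1) (k + 2) → Prop := fun S => rdet (1 + 1) S.1 = 1 ∧ S.1 0 ≠ 1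
    have h1 := (head_card hK (s := 1) (N := k + 1) (m := k + 2) le_rfl id (fun x => pow_one x))
    have h2 := rest_card hK (s := 1) (N := k + 1) (m := k + 2) le_rfl P Q fun T h0 hT S hS => by
      obtain ⟨hd, hne⟩ := hT
      rw [rdet_succ, h0, natDegree_one, coeff_one_zero] at hd
      simp only [pow_zero, mul_one, one_pow, one_mul] at hd
      exact ⟨by rw [hS]; exact hd, by rw [hS]; exact hne⟩
    have h3 := head_card hK (s := 1 + 1) (N := k) (m := k + 2) (by omega) (fun y => y ^ 2) hroot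
    haveI := h1.1
    haveI := h2.1
    let Φ : {T : W hK 1 (k + 2) (k + 2) // rdet 1 T.1 = 1 ∧ (T.1 0 ≠ 1 ∨ T.1 1 ≠ 1)} →
        {T : W hK 1 (k + 2) (k + 2) // rdet 1 T.1 = 1 ∧ T.1 0 ≠ 1} ⊕ {T : W hK 1 (k + 2) (k + 2) // P T ∧ T.1 0 = 1} :=
      fun T => if h : T.1.1 0 ≠ 1 then Sum.inl ⟨T.1, T.2.1, h⟩
        else Sum.inr ⟨T.1, ⟨T.2.1, T.2.2.resolve_left h⟩, not_not.1 h⟩
    have hpr : ∀ T, Sum.elim (fun x => x.1) (fun x => x.1) (Φ T) = T.1 := fun T => by
      simp only [Φ]; split_ifs <;> rfl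
    have hΦ : Function.Injective Φ := fun T U e => Subtype.ext (by rw [← hpr T, e, hpr U])
    refine (Nat.card_le_card_of_injective Φ hΦ).trans ?_
    rw [Nat.card_sum]
    refine Nat.add_le_add ?_ (h2.2.trans h3.2)
    simpa only [Nat.div_one, one_mul] using h1.2
  refine Nat.add_le_add hA (Nat.mul_le_mul ((Nat.le_of_dvd (by omega) (Nat.gcd_dvd_left _ _)).trans (by omega)) ?_)
  refine le_trans (le_of_eq (Nat.card_congr (Equiv.subtypeEquivRight
    (q := fun T : W hK 1 (k + 2) (k + 2) => (rdet 1 T.1 = 1 ∧ T.1 1 = 1) ∧ T.1 0 = 1) fun T => by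
      simp only [not_or, not_not]; tauto))) ?_
  refine ((rest_card hK (s := 1) (N := k + 1) (m := k + 2) le_rfl (fun T => rdet 1 T.1 = 1 ∧ T.1 1 = 1)
    (fun S => True ∧ S.1 0 = 1) fun T _ hT S hS => ⟨trivial, by rw [hS]; exact hT.2⟩).2).trans ?_
  refine ((rest_card hK (s := 1 + 1) (N := k) (m := k + 2) (by omega) (fun _ => True) (fun _ => True)
    fun _ _ _ _ _ => trivial).2).trans ?_
  rw [Nat.card_congr (Equiv.subtypeUnivEquiv fun _ => trivial)]
  exact (w_card hK k (by omega) _).2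

/-- Rewriting a weighted count as a normalised sum. -/
theorem sum_norm {q : ℕ} (hq : q ≠ 0) (f : ℕ → ℕ) (m : ℕ) :
    ((∑ d ∈ Finset.range (m + 1), q ^ d * f (m + 1 - (d + 1)) : ℕ) : ℚ) =
      (q : ℚ) ^ m * ∑ j ∈ Finset.range (m + 1), (f j : ℚ) / (q : ℚ) ^ j := by
  have hq' : (q : ℚ) ≠ 0 := Nat.cast_ne_zero.2 hq
  rw [← Finset.sum_range_reflect (fun j => (f j : ℚ) / (q : ℚ) ^ j), Finset.mul_sum, Nat.cast_sum]
  refine Finset.sum_congr rfl fun d hd => ?_
  rw [Finset.mem_range] at hd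
  rw [show m + 1 - 1 - d = m + 1 - (d + 1) by omega, Nat.cast_mul, Nat.cast_pow,
    show (q : ℚ) ^ m = (q : ℚ) ^ d * (q : ℚ) ^ (m + 1 - (d + 1)) by rw [← pow_add]; congr 1; omega]
  field_simp

include hK in
theorem bounds (n : ℕ) (hn : 2 ≤ n) :
    q ^ (n - 1) ≤ Nat.card (ConjClasses ↥(Cfsg.SU n K q)) ∧
      100 * Nat.card (ConjClasses ↥(Cfsg.SU n K q)) ≤ 826 * q ^ (n - 1) := by
  classical
  have hq := two_le_q hK
  constructor
  · obtain ⟨p, hp⟩ := CharP.exists K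
    obtain ⟨m, hpp, -⟩ := FiniteField.card K p
    haveI := Fact.mk hpp
    rw [← card_su hK p (show 1 ≤ n by omega)]
    exact Finite.card_subtype_le _
  · obtain ⟨k, rfl⟩ : ∃ k, n = k + 2 := ⟨n - 2, by omega⟩
    rw [show k + 2 - 1 = k + 1 from rfl]
    have hqp : (0 : ℚ) < (q : ℚ) ^ (k + 1) := by positivity
    rw [← Nat.cast_le (α := ℚ)]
    rcases eq_or_lt_of_le hq with h2 | h3
    · have hq2 : q = 2 := h2.symm
      subst hq2
      have h := upper_two hK rfl (k := k)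
      rw [← Nat.cast_le (α := ℚ), Nat.cast_add, Nat.cast_add, Nat.cast_mul 3,
        sum_norm (by norm_num) (fun j => cnt 2 2 (k + 1) j) (k + 1)] at h
      have hmid : (3 : ℚ) * ((∑ e ∈ Finset.range ((k + 2) / 2), 2 ^ e * cnt 2 3 k (k + 2 - 2 * (e + 1)) : ℕ) : ℚ) +
          (cnt 2 3 k (k + 2) : ℚ) = (cnt 2 2 (k + 1) (k + 2) : ℚ) := by
        rw [Numeric.cnt, Finset.sum_range_succ']
        push_cast
        rw [Finset.mul_sum]
        congr 1
        · refine Finset.sum_congr rfl fun e _ => ?_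
          simp [a]; ring
        · simp [a]
      have hb := Numeric.bound_two (n := k + 2) (by omega)
      rw [show k + 2 - 1 = k + 1 from rfl, show k + 2 - 2 = k from rfl] at hb
      have e : (2 : ℚ) ^ (k + 2) = 2 * 2 ^ (k + 1) := by rw [pow_succ']
      push_cast at h hmid ⊢
      rw [e] at hb
      field_simp at hb
      nlinarith
    · have hq3 : 3 ≤ q := h3
      have h := upper_gen hK (k := k + 1)
      rw [← Nat.cast_le (α := ℚ), Nat.cast_add, Nat.cast_mul (Nat.gcd _ _),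
        sum_norm (by omega) (fun j => cnt q 2 (k + 1) j) (k + 1)] at h
      have hb := Numeric.bound_large hq3 (n := k + 2) (by omega) (Nat.gcd (q + 1) (k + 1 + 1))
        (Nat.le_of_dvd (by omega) (Nat.gcd_dvd_left _ _)) (Nat.le_of_dvd (by omega) (Nat.gcd_dvd_right _ _))
      rw [show k + 2 - 1 = k + 1 from rfl] at hb
      have hq0 : (q : ℚ) ≠ 0 := by positivity
      have e : ((Nat.gcd (q + 1) (k + 1 + 1) : ℕ) : ℚ) * q * ((cnt q 2 (k + 1) (k + 2) : ℚ) / (q : ℚ) ^ (k + 2)) *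
          (q : ℚ) ^ (k + 1) = ((Nat.gcd (q + 1) (k + 1 + 1) : ℕ) : ℚ) * (cnt q 2 (k + 1) (k + 1 + 1) : ℚ) := by
        rw [pow_succ (q : ℚ) (k + 1)]
        field_simp
      have hb' := mul_le_mul_of_nonneg_right hb hqp.le
      rw [add_mul, e] at hb'
      push_cast at h ⊢
      nlinarith [hb', h]

end Cfsg.Agent.Lib.SUClassCount.Main
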